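import Cfsg.Agent.Characters.Core

/-!
# Equivariant maps for subgroups (helper495)

`exists_map` : for two representations `ρ`, `σ` of `G = ⟨A, B⟩` and `K ≤ A ∩ B` such that the spaces of the
`A`-equivariant, `B`-equivariant and `K`-equivariant maps have the same dimension `≠ 0`, there is a nonzero
`G`-equivariant map.
-/

set_option autoImplicit false

namespace Cfsg.Agent.H495.QCo.Amal

open Module Cfsg Representation
open Cfsg.Agent.Characters.Core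

variable {G V W : Type*} [Group G] [AddCommGroup V] [Module ℂ V] [AddCommGroup W] [Module ℂ W]

theorem comp_inv_left (ρ : G →* (V →ₗ[ℂ] V)) (g : G) : ρ g⁻¹ ∘ₗ ρ g = LinearMap.id := by
  rw [← Module.End.mul_eq_comp, ← map_mul, inv_mul_cancel, map_one, Module.End.one_eq_id]

theorem comp_inv_right (ρ : G →* (V →ₗ[ℂ] V)) (g : G) : ρ g ∘ₗ ρ g⁻¹ = LinearMap.id := by
  rw [← Module.End.mul_eq_comp, ← map_mul, mul_inv_cancel, map_one, Module.End.one_eq_id]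

/-- the equivariant maps for a subgroup -/
noncomputable def Hm (ρ : G →* (V →ₗ[ℂ] V)) (σ : G →* (W →ₗ[ℂ] W)) (S : Subgroup G) : Submodule ℂ (V →ₗ[ℂ] W) :=
  invariants (linHom (ρ.comp S.subtype) (σ.comp S.subtype))

theorem key (ρ : G →* (V →ₗ[ℂ] V)) (σ : G →* (W →ₗ[ℂ] W)) (f : V →ₗ[ℂ] W) (g : G) :
    (σ g ∘ₗ f ∘ₗ ρ g⁻¹ = f) ↔ σ g ∘ₗ f = f ∘ₗ ρ g := by
  constructor
  · intro h
    rw [← h, LinearMap.comp_assoc, LinearMap.comp_assoc, comp_inv_left, LinearMap.comp_id, h]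
  · intro h
    rw [← LinearMap.comp_assoc, h, LinearMap.comp_assoc, comp_inv_right, LinearMap.comp_id]

theorem mem_Hm {ρ : G →* (V →ₗ[ℂ] V)} {σ : G →* (W →ₗ[ℂ] W)} {S : Subgroup G} {f : V →ₗ[ℂ] W} :
    f ∈ Hm ρ σ S ↔ ∀ g ∈ S, σ g ∘ₗ f = f ∘ₗ ρ g := by
  unfold Hm
  rw [mem_invariants]
  constructor
  · intro h g hg
    exact (key ρ σ f g).1 (h ⟨g, hg⟩)
  · intro h g
    exact (key ρ σ f g).2 (h g g.2)

theorem Hm_mono {ρ : G →* (V →ₗ[ℂ] V)} {σ : G →* (W →ₗ[ℂ] W)} {S S' : Subgroup G} (h : S ≤ S') :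
    Hm ρ σ S' ≤ Hm ρ σ S := fun _ hf => mem_Hm.2 fun g hg => mem_Hm.1 hf g (h hg)

theorem finrank_Hm [FiniteDimensional ℂ V] [FiniteDimensional ℂ W] (ρ : G →* (V →ₗ[ℂ] V)) (σ : G →* (W →ₗ[ℂ] W))
    (S : Subgroup G) [Fintype S] :
    (finrank ℂ (Hm ρ σ S) : ℂ) = (Nat.card S : ℂ)⁻¹ * ∑ s : S, LinearMap.trace ℂ V (ρ (s : G)⁻¹) *
      LinearMap.trace ℂ W (σ (s : G)) := by
  have : Invertible (Nat.card S : ℂ) := invertibleOfNonzero card_ne_zero_complex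
  unfold Hm
  rw [← card_inv_mul_sum_char_eq_finrank]
  congr 1
  refine Finset.sum_congr rfl fun s _ => ?_
  rw [char_linHom]
  rfl

theorem trace_conj (ρ : G →* (V →ₗ[ℂ] V)) (g x : G) :
    LinearMap.trace ℂ V (ρ (g * x * g⁻¹)) = LinearMap.trace ℂ V (ρ x) := by
  rw [map_mul ρ (g * x) g⁻¹, LinearMap.trace_mul_comm, ← map_mul, ← mul_assoc, inv_mul_cancel, one_mul]

/-- the dimension for a subgroup on which `tr σ = a tr ρ` -/
theorem finrank_of_trace [Finite G] [FiniteDimensional ℂ V] [FiniteDimensional ℂ W] (ρ : G →* (V →ₗ[ℂ] V))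
    (σ : G →* (W →ₗ[ℂ] W)) {S : Subgroup G} {a : ℕ}
    (h : ∀ g ∈ S, LinearMap.trace ℂ W (σ g) = a * LinearMap.trace ℂ V (ρ g)) :
    finrank ℂ (Hm ρ σ S) = a * finrank ℂ (Hm ρ ρ S) := by
  classical
  have := Fintype.ofFinite S
  have h' : (finrank ℂ (Hm ρ σ S) : ℂ) = ((a * finrank ℂ (Hm ρ ρ S) : ℕ) : ℂ) := by
    have e : ∑ s : S, LinearMap.trace ℂ V (ρ (s : G)⁻¹) * LinearMap.trace ℂ W (σ (s : G)) =
        a * ∑ s : S, LinearMap.trace ℂ V (ρ (s : G)⁻¹) * LinearMap.trace ℂ V (ρ (s : G)) := by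
      rw [Finset.mul_sum]
      refine Finset.sum_congr rfl fun s _ => ?_
      rw [h s s.2]
      ring
    push_cast
    rw [finrank_Hm, finrank_Hm, e]
    ring
  exact_mod_cast h'

/-- the dimension for a conjugate subgroup -/
theorem finrank_conj [Finite G] [FiniteDimensional ℂ V] [FiniteDimensional ℂ W] (ρ : G →* (V →ₗ[ℂ] V))
    (σ : G →* (W →ₗ[ℂ] W)) {A B : Subgroup G} (t : G) (h : ∀ g, g ∈ B ↔ t * g * t⁻¹ ∈ A) :
    finrank ℂ (Hm ρ σ B) = finrank ℂ (Hm ρ σ A) := by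
  classical
  have := Fintype.ofFinite A
  have := Fintype.ofFinite B
  let e : B ≃ A :=
    { toFun := fun g => ⟨t * g * t⁻¹, (h g).1 g.2⟩
      invFun := fun g => ⟨t⁻¹ * g * t, by
        rw [h]
        have : t * (t⁻¹ * (g : G) * t) * t⁻¹ = g := by group
        rw [this]
        exact g.2⟩
      left_inv := fun g => Subtype.ext (by
        show t⁻¹ * (t * (g : G) * t⁻¹) * t = g
        group)
      right_inv := fun g => Subtype.ext (by
        show t * (t⁻¹ * (g : G) * t) * t⁻¹ = g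
        group) }
  have h : (finrank ℂ (Hm ρ σ B) : ℂ) = (finrank ℂ (Hm ρ σ A) : ℂ) := by
    rw [finrank_Hm, finrank_Hm, Nat.card_congr e]
    congr 1
    refine Fintype.sum_equiv e _ _ fun s => ?_
    have h1 : ((e s : A) : G)⁻¹ = t * (s : G)⁻¹ * t⁻¹ := by
      show (t * (s : G) * t⁻¹)⁻¹ = _
      group
    rw [h1, trace_conj]
    congr 1
    exact (trace_conj σ t (s : G)).symm
  exact_mod_cast h

/-- **equivariant maps for the group generated by two subgroups** -/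
theorem exists_map [FiniteDimensional ℂ V] [FiniteDimensional ℂ W] {ρ : G →* (V →ₗ[ℂ] V)} {σ : G →* (W →ₗ[ℂ] W)}
    {A B K : Subgroup G} (hAB : A ⊔ B = ⊤) (hKA : K ≤ A) (hKB : K ≤ B) {a : ℕ} (ha : a ≠ 0)
    (hA : finrank ℂ (Hm ρ σ A) = a) (hB : finrank ℂ (Hm ρ σ B) = a) (hK : finrank ℂ (Hm ρ σ K) = a) :
    ∃ f : V →ₗ[ℂ] W, f ≠ 0 ∧ ∀ g : G, σ g ∘ₗ f = f ∘ₗ ρ g := by
  have e1 : Hm ρ σ A = Hm ρ σ K := Submodule.eq_of_le_of_finrank_eq (Hm_mono hKA) (by rw [hA, hK])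
  have e2 : Hm ρ σ B = Hm ρ σ K := Submodule.eq_of_le_of_finrank_eq (Hm_mono hKB) (by rw [hB, hK])
  have hne : Hm ρ σ K ≠ ⊥ := by
    intro h
    rw [h, finrank_bot] at hK
    exact ha hK.symm
  obtain ⟨f, hf, hf0⟩ := Submodule.exists_mem_ne_zero_of_ne_bot hne
  refine ⟨f, hf0, ?_⟩
  let St : Subgroup G :=
    { carrier := {g | σ g ∘ₗ f = f ∘ₗ ρ g}
      one_mem' := by
        show σ 1 ∘ₗ f = f ∘ₗ ρ 1
        rw [map_one, map_one]
        rfl
      mul_mem' := by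
        intro a b ha hb
        have ha' : σ a ∘ₗ f = f ∘ₗ ρ a := ha
        have hb' : σ b ∘ₗ f = f ∘ₗ ρ b := hb
        show σ (a * b) ∘ₗ f = f ∘ₗ ρ (a * b)
        rw [map_mul, map_mul, Module.End.mul_eq_comp, Module.End.mul_eq_comp, LinearMap.comp_assoc, hb',
          ← LinearMap.comp_assoc, ha', LinearMap.comp_assoc]
      inv_mem' := by
        intro a ha
        have ha' : σ a ∘ₗ f = f ∘ₗ ρ a := ha
        show σ a⁻¹ ∘ₗ f = f ∘ₗ ρ a⁻¹
        have h1 := (key ρ σ f a).2 ha'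
        calc σ a⁻¹ ∘ₗ f = σ a⁻¹ ∘ₗ (σ a ∘ₗ f ∘ₗ ρ a⁻¹) := by rw [h1]
          _ = (σ a⁻¹ ∘ₗ σ a) ∘ₗ f ∘ₗ ρ a⁻¹ := (LinearMap.comp_assoc _ _ _).symm
          _ = f ∘ₗ ρ a⁻¹ := by rw [comp_inv_left, LinearMap.id_comp] }
  have hle : A ⊔ B ≤ St := by
    have hf1 := mem_Hm.1 (e1 ▸ hf : f ∈ Hm ρ σ A)
    have hf2 := mem_Hm.1 (e2 ▸ hf : f ∈ Hm ρ σ B)
    exact sup_le (fun g hg => hf1 g hg) (fun g hg => hf2 g hg)
  rw [hAB, top_le_iff] at hle
  intro g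
  have : g ∈ St := by rw [hle]; trivial
  exact this

theorem finrank_one {X : Type*} [AddCommGroup X] [Module ℂ X] {v : X} (hv : v ≠ 0) (h : ∀ w : X, ∃ c : ℂ, c • v = w) :
    finrank ℂ X = 1 :=
  (finrank_eq_one_iff_of_nonzero' v hv).2 h

/-- a group with only scalar commuting maps -/
theorem finrank_self [Nontrivial V] (ρ : G →* (V →ₗ[ℂ] V)) (S : Subgroup G)
    (h : ∀ f : V →ₗ[ℂ] V, (∀ k ∈ S, f * ρ k = ρ k * f) → ∃ t : ℂ, f = t • (1 : V →ₗ[ℂ] V)) :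
    finrank ℂ (Hm ρ ρ S) = 1 := by
  have h1 : (1 : V →ₗ[ℂ] V) ∈ Hm ρ ρ S := mem_Hm.2 fun g _ => by
    rw [← Module.End.mul_eq_comp, ← Module.End.mul_eq_comp, mul_one, one_mul]
  refine finrank_one (v := ⟨1, h1⟩) (fun h0 => ?_) fun w => ?_
  · have h2 : (1 : V →ₗ[ℂ] V) = 0 := congrArg Subtype.val h0
    obtain ⟨x, hx⟩ := exists_ne (0 : V)
    apply hx
    have h3 := congrArg (fun f : V →ₗ[ℂ] V => f x) h2
    simpa using h3
  · obtain ⟨t, ht⟩ := h (w : V →ₗ[ℂ] V) (fun k hk => (mem_Hm.1 w.2 k hk).symm)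
    exact ⟨t, Subtype.ext ht.symm⟩

/-- the character of a representation with only scalar commuting maps is irreducible -/
theorem isIrr_of_scalar [Finite G] [FiniteDimensional ℂ V] [Nontrivial V] (ρ : Representation ℂ G V)
    (h : ∀ f : V →ₗ[ℂ] V, (∀ k : G, f * ρ k = ρ k * f) → ∃ t : ℂ, f = t • (1 : V →ₗ[ℂ] V)) :
    IsIrrCharacter G ρ.character := by
  classical
  have := Fintype.ofFinite G
  refine isIrr_of_classInner_self (isCharacter_of_rep ρ) ?_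
  have h1 := finrank_self (ρ : G →* (V →ₗ[ℂ] V)) ⊤ (fun f hf => h f fun k => hf k (Subgroup.mem_top k))
  have h2 := finrank_Hm (ρ : G →* (V →ₗ[ℂ] V)) ρ ⊤
  rw [h1, Nat.cast_one] at h2
  rw [classInner_def, h2]
  congr 1
  · rw [Subgroup.card_top]
  · refine (Fintype.sum_equiv Subgroup.topEquiv.toEquiv _ _ fun s => ?_).symm
    rw [mul_comm, ← isCharacter_apply_inv (isCharacter_of_rep ρ)]
    rfl

/-- two irreducible representations with a nonzero equivariant map have the same character -/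
theorem char_eq_of_map [Finite G] [FiniteDimensional ℂ V] [FiniteDimensional ℂ W] {ρ : Representation ℂ G V}
    {σ : Representation ℂ G W} (hρ : IsIrrCharacter G ρ.character) (hσ : IsIrrCharacter G σ.character)
    {f : V →ₗ[ℂ] W} (hf0 : f ≠ 0) (hf : ∀ g : G, σ g ∘ₗ f = f ∘ₗ ρ g) : σ.character = ρ.character := by
  classical
  have := Fintype.ofFinite G
  by_contra hne
  have h1 := classInner_irr_ne hσ hρ hne
  rw [classInner_def] at h1
  have h2 := finrank_Hm (ρ : G →* (V →ₗ[ℂ] V)) (σ : G →* (W →ₗ[ℂ] W)) ⊤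
  have h3 : (Nat.card (⊤ : Subgroup G) : ℂ)⁻¹ * ∑ s : (⊤ : Subgroup G), LinearMap.trace ℂ V (ρ (s : G)⁻¹) *
      LinearMap.trace ℂ W (σ (s : G)) = 0 := by
    rw [← h1]
    congr 1
    · rw [Subgroup.card_top]
    · refine Fintype.sum_equiv Subgroup.topEquiv.toEquiv _ _ fun s => ?_
      rw [mul_comm, ← isCharacter_apply_inv (isCharacter_of_rep ρ)]
      rfl
  rw [h3] at h2
  have h4 : finrank ℂ (Hm (ρ : G →* (V →ₗ[ℂ] V)) (σ : G →* (W →ₗ[ℂ] W)) ⊤) = 0 := by exact_mod_cast h2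
  rw [Submodule.finrank_eq_zero] at h4
  have h5 : f ∈ Hm (ρ : G →* (V →ₗ[ℂ] V)) (σ : G →* (W →ₗ[ℂ] W)) ⊤ := mem_Hm.2 fun g _ => hf g
  rw [h4, Submodule.mem_bot] at h5
  exact hf0 h5

end Cfsg.Agent.H495.QCo.Amal
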