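import Cfsg.Agent.H848.TrioK
import Cfsg.Agent.KFacts.Co1.Simp
import Cfsg.Agent.CoOneType.GenCrit
import Cfsg.Agent.CoOneType.InvClasses
import Cfsg.Agent.SporadicA.M24Frames

/-!
# The intersection of the monomial group of `Co0` with its conjugate under a sextet map (helper495)
-/

set_option autoImplicit false

namespace Cfsg.Agent.H495.QCo.KSub

open Cfsg
open Cfsg.Agent.SporadicA.Co0Mono hiding smul_add smul_sub smul_neg smul_zero
open Cfsg.Agent.SporadicA.Co1Simple
open Cfsg.Agent.SporadicA.Xi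
open Cfsg.Agent.SporadicA.GolayBase (isCode word word_apply idx)
open Cfsg.Agent.SporadicStructure.Co0Base (e8 e8_coe)
open Cfsg.Agent.CoOneType.SignFacts
open Cfsg.Agent.CoOneType.InvClasses (xi_e8)
open Cfsg.Agent.CoOneType.GenCrit (isCoatom_N)
open Cfsg.Agent.KFacts.Co1.Maxi (mem_N_of_map)
open Cfsg.Agent.H848.TrioK (T isSextet_T)

/-- the sextet map -/
def xi : Co0 := xiCo0 T isSextet_T

theorem xi_smul_smul (v : leechLattice) : xi • (xi • v) = v :=
  Subtype.ext (xiFun_xiFun isSextet_T v.2)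

theorem xi_mul_self : xi * xi = 1 := by
  apply ext
  intro v
  rw [mul_smul, xi_smul_smul, one_smul]

theorem xi_inv : xi⁻¹ = xi := inv_eq_of_mul_eq_one_left xi_mul_self

theorem exists_T (k : Fin 6) : ∃ p, T p = k := by
  have h : (fib T k).Nonempty := by
    rw [← Finset.card_pos, isSextet_T.card]
    norm_num
  obtain ⟨p, hp⟩ := h
  exact ⟨p, mem_fib.1 hp⟩

theorem xi_coe (i j : GolayPt) : ((xi • e8 j : leechLattice) : GolayPt → ℤ) i =
    (if T i = 0 then -1 else 1) * ((if T i = T j then 4 else 0) - (if i = j then 8 else 0)) := xi_e8 isSextet_T i j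

theorem xi_notMem_N : xi ∉ N := by
  intro h
  obtain ⟨c, σ, hc⟩ := exists_sign_perm h
  obtain ⟨p, hp⟩ := exists_T 1
  have h1 : (xi • e8 p : leechLattice) = signCo0 c • e8 ((σ : Equiv.Perm GolayPt) p) := by
    rw [hc, mul_smul, perm_smul_e8]
  have h2 : ((xi • e8 p : leechLattice) : GolayPt → ℤ) p = -4 := by
    rw [xi_coe, hp, if_neg (by decide), if_pos rfl, if_pos rfl]
    norm_num
  rw [h1, signCo0_smul, signMap_apply, e8_coe] at h2
  rcases Cfsg.Agent.SporadicStructure.LeechBase.zmod2_cases ((c : GolayPt → ZMod 2) p) with h3 | h3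
  · rw [h3, sgn_zero, one_mul, Pi.single_apply] at h2
    split_ifs at h2
  · rw [h3, sgn_one, Pi.single_apply] at h2
    split_ifs at h2 <;> norm_num at h2

/-- the conjugate of the monomial group -/
def N' : Subgroup Co0 := N.comap (MulAut.conj xi).toMonoidHom

theorem mem_N' {g : Co0} : g ∈ N' ↔ xi * g * xi⁻¹ ∈ N := Iff.rfl

theorem sup_eq_top : N ⊔ N' = ⊤ := by
  by_contra h
  have h1 : N ⊔ N' = N := by
    rcases isCoatom_N.le_iff.1 (le_sup_left : N ≤ N ⊔ N') with h2 | h2
    · exact absurd h2 h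
    · exact h2
  have h2 : N' ≤ N := by rw [← h1]; exact le_sup_right
  apply xi_notMem_N
  apply mem_N_of_conj
  apply h2
  rw [mem_N']
  have h3 : xi * (xi⁻¹ * x23 * xi) * xi⁻¹ = x23 := by group
  rw [h3]
  exact x23_mem_N

/-- the intersection -/
def K : Subgroup Co0 := N ⊓ N'

/-- sign changes in `K` -/
theorem sign_mem_K {c : golayCode} (k : Fin 6) (h : ∀ p, T p = k → (c : GolayPt → ZMod 2) p = 0) : signCo0 c ∈ K := by
  refine Subgroup.mem_inf.2 ⟨sign_mem_N c, ?_⟩
  obtain ⟨p, hp⟩ := exists_T k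
  rw [mem_N', xi_inv]
  refine mem_N_of_map (i := p) (j := p) (Or.inl ?_)
  rw [mul_smul, mul_smul, (sign_fixed_iff c _).2, xi_smul_smul]
  intro i hi
  rw [mem_sup] at hi
  rw [xi_coe]
  have h1 : T i ≠ T p := fun h2 => by
    rw [h i (h2.trans hp)] at hi
    exact absurd hi (by decide)
  have h3 : ¬ i = p := fun h2 => h1 (by rw [h2])
  rw [if_neg h1, if_neg h3, sub_zero, mul_zero]

/-- permutations in `K` -/
theorem perm_mem_K {σ : M24} (k l : Fin 6) (h : ∀ p, T p = k → T ((σ : Equiv.Perm GolayPt) p) = l) : permCo0 σ ∈ K := by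
  classical
  refine Subgroup.mem_inf.2 ⟨perm_mem_N σ, ?_⟩
  obtain ⟨p, hp⟩ := exists_T k
  rw [mem_N', xi_inv]
  -- the tetrad `k` is mapped onto the tetrad `l`
  have hT : ∀ i, T i = l → T ((σ : Equiv.Perm GolayPt).symm i) = k := by
    have h1 : (fib T k).map (σ : Equiv.Perm GolayPt).toEmbedding = fib T l := by
      apply Finset.eq_of_subset_of_card_le
      · intro x hx
        rw [Finset.mem_map] at hx
        obtain ⟨y, hy, rfl⟩ := hx
        exact mem_fib.2 (h y (mem_fib.1 hy))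
      · rw [Finset.card_map, isSextet_T.card, isSextet_T.card]
    intro i hi
    have h2 : i ∈ (fib T k).map (σ : Equiv.Perm GolayPt).toEmbedding := by
      rw [h1]; exact mem_fib.2 hi
    rw [Finset.mem_map] at h2
    obtain ⟨y, hy, hyi⟩ := h2
    have h3 : (σ : Equiv.Perm GolayPt).symm i = y := by
      rw [Equiv.symm_apply_eq]; exact hyi.symm
    rw [h3]
    exact mem_fib.1 hy
  have hT' : ∀ i, T ((σ : Equiv.Perm GolayPt).symm i) = k ↔ T i = l := by
    intro i
    refine ⟨fun h1 => ?_, hT i⟩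
    have h2 := h _ h1
    rwa [Equiv.apply_symm_apply] at h2
  have key : ∃ s : ℤ, (s = 1 ∨ s = -1) ∧ ∀ i, ((permCo0 σ • (xi • e8 p) : leechLattice) : GolayPt → ℤ) i =
      s * ((xi • e8 ((σ : Equiv.Perm GolayPt) p) : leechLattice) : GolayPt → ℤ) i := by
    refine ⟨(if k = 0 then -1 else 1) * (if l = 0 then -1 else 1), ?_, fun i => ?_⟩
    · split_ifs <;> simp
    · rw [permCo0_smul, permMap_apply, xi_coe, xi_coe, hp, h p hp]
      by_cases hi : T i = l
      · rw [(hT' i).2 hi, hi, if_pos rfl, if_pos rfl]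
        have e1 : ((σ : Equiv.Perm GolayPt).symm i = p) ↔ (i = (σ : Equiv.Perm GolayPt) p) := by
          rw [Equiv.symm_apply_eq]
        rw [if_congr e1 rfl rfl]
        by_cases hk : k = 0 <;> by_cases hl : l = 0 <;> simp only [hk, hl, if_true, if_false] <;> ring
      · have e1 : ¬ T ((σ : Equiv.Perm GolayPt).symm i) = k := fun h1 => hi ((hT' i).1 h1)
        have e2 : ¬ (σ : Equiv.Perm GolayPt).symm i = p := fun h1 => e1 (by rw [h1, hp])
        have e3 : ¬ i = (σ : Equiv.Perm GolayPt) p := fun h1 => hi (by rw [h1, h p hp])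
        rw [if_neg e1, if_neg e2, if_neg hi, if_neg e3]
        simp
  obtain ⟨s, hs, hi⟩ := key
  refine mem_N_of_map (i := p) (j := (σ : Equiv.Perm GolayPt) p) ?_
  rw [mul_smul, mul_smul]
  rcases hs with rfl | rfl
  · left
    have h1 : permCo0 σ • (xi • e8 p) = xi • e8 ((σ : Equiv.Perm GolayPt) p) := by
      apply Subtype.ext
      funext i
      rw [hi i, one_mul]
    rw [h1, xi_smul_smul]
  · right
    have h1 : permCo0 σ • (xi • e8 p) = -(xi • e8 ((σ : Equiv.Perm GolayPt) p)) := by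
      apply Subtype.ext
      funext i
      rw [hi i]
      show _ = -((xi • e8 ((σ : Equiv.Perm GolayPt) p) : leechLattice) : GolayPt → ℤ) i
      ring
    rw [h1, Cfsg.Agent.SporadicA.Co0Mono.smul_neg, xi_smul_smul]

/-! ### separation of the points and transitivity -/

/-- the words -/
def ms : List ℕ := [9347075, 16056344, 4800613, 2019456, 4231958, 6292775]

theorem ms_code : ∀ m ∈ ms, isCode m = true := by decide +kernel

theorem ms_tet : ∀ m ∈ ms, ∃ k : Fin 6, ∀ p : GolayPt, T p = k → m.testBit (idx p) = false := by decide +kernel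

theorem ms_sep : ∀ p q : GolayPt, p ≠ q → ∃ m ∈ ms, m.testBit (idx p) ≠ m.testBit (idx q) := by decide +kernel

theorem exists_sep {p q : GolayPt} (h : p ≠ q) :
    ∃ c : golayCode, signCo0 c ∈ K ∧ (c : GolayPt → ZMod 2) p ≠ (c : GolayPt → ZMod 2) q := by
  obtain ⟨m, hm, hpq⟩ := ms_sep p q h
  obtain ⟨k, hk⟩ := ms_tet m hm
  have hc := Cfsg.Agent.CoOneType.MonoWord.cw m (ms_code m hm)
  refine ⟨Cfsg.Agent.CoOneType.MonoWord.cw m (ms_code m hm), sign_mem_K k fun p hp => ?_, ?_⟩
  · show word m p = 0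
    rw [word_apply, hk p hp]
    rfl
  · show word m p ≠ word m q
    rw [word_apply, word_apply]
    cases h1 : m.testBit (idx p) <;> cases h2 : m.testBit (idx q)
    · rw [h1, h2] at hpq; exact absurd rfl hpq
    · simp
    · simp
    · rw [h1, h2] at hpq; exact absurd rfl hpq

/-- an injective quintuple starting with the tetrad of `p` -/
theorem exists_quint (p : GolayPt) : ∃ a : Fin 5 → GolayPt, Function.Injective a ∧ a 0 = p ∧
    (∀ x, T x = T p ↔ ∃ i : Fin 5, i ≠ 4 ∧ a i = x) := by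
  classical
  have h1 : ((fib T (T p)).erase p).card = 3 := by
    rw [Finset.card_erase_of_mem (mem_fib.2 rfl), isSextet_T.card]
  obtain ⟨x, y, z, hxy, hxz, hyz, he⟩ := Finset.card_eq_three.1 h1
  have hmem : ∀ w, w ∈ ({x, y, z} : Finset GolayPt) ↔ w ≠ p ∧ T w = T p := by
    intro w
    rw [← he, Finset.mem_erase, mem_fib]
  have hx := (hmem x).1 (by simp)
  have hy := (hmem y).1 (by simp)
  have hz := (hmem z).1 (by simp)
  obtain ⟨r, hr⟩ : ∃ r, T r ≠ T p := by
    obtain ⟨r0, h0⟩ := exists_T 0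
    obtain ⟨r1, h1⟩ := exists_T 1
    by_cases h : T p = 0
    · exact ⟨r1, by rw [h1, h]; decide⟩
    · exact ⟨r0, by rw [h0]; exact fun h' => h h'.symm⟩
  refine ⟨![p, x, y, z, r], ?_, rfl, fun w => ⟨fun hw => ?_, ?_⟩⟩
  · have n1 := hx.1
    have n2 := hy.1
    have n3 := hz.1
    have m0 : r ≠ p := fun h => hr (by rw [h])
    have m1 : r ≠ x := fun h => hr (by rw [h, hx.2])
    have m2 : r ≠ y := fun h => hr (by rw [h, hy.2])
    have m3 : r ≠ z := fun h => hr (by rw [h, hz.2])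
    intro i j hij
    fin_cases i <;> fin_cases j <;> simp_all
  · by_cases hwp : w = p
    · exact ⟨0, by decide, hwp.symm⟩
    · have h2 := (hmem w).2 ⟨hwp, hw⟩
      simp only [Finset.mem_insert, Finset.mem_singleton] at h2
      rcases h2 with h2 | h2 | h2
      · exact ⟨1, by decide, h2.symm⟩
      · exact ⟨2, by decide, h2.symm⟩
      · exact ⟨3, by decide, h2.symm⟩
  · rintro ⟨i, hi, rfl⟩
    fin_cases i
    · rfl
    · exact hx.2
    · exact hy.2
    · exact hz.2
    · exact absurd rfl hi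

theorem exists_perm (p q : GolayPt) : ∃ σ : M24, permCo0 σ ∈ K ∧ (σ : Equiv.Perm GolayPt) p = q := by
  obtain ⟨a, ha, ha0, haT⟩ := exists_quint p
  obtain ⟨b, hb, hb0, hbT⟩ := exists_quint q
  obtain ⟨g, hg, h⟩ := Cfsg.Agent.SporadicA.M24Frames.five_transitive a b ha hb
  refine ⟨⟨g, hg⟩, perm_mem_K (T p) (T q) fun x hx => ?_, ?_⟩
  · obtain ⟨i, hi, rfl⟩ := (haT x).1 hx
    exact (hbT _).2 ⟨i, hi, (h i).symm⟩
  · rw [← ha0, ← hb0]; exact h 0

end Cfsg.Agent.H495.QCo.KSub
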