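import Cfsg.Agent.H495.QCo.Sum
import Cfsg.Agent.H495.QCo.Amal
import Cfsg.Agent.H264.QS.CoSieve
import Cfsg.Agent.Schreier.Co1
import Cfsg.Agent.Characters.Central

/-!
# The faithful irreducible characters of `Co0` of degree prime to 23 and smaller than 2048 (helper495)

`deg2 : Deg2 2048` (the input of `H264/QS/CoSieve`): such a character is the 24-dimensional one.
-/

set_option autoImplicit false

namespace Cfsg.Agent.H495.QCo.Main

open Module Cfsg
open Cfsg.Agent.H495.QCo.Wt Cfsg.Agent.H495.QCo.KSub Cfsg.Agent.H495.QCo.Sum Cfsg.Agent.H495.QCo.Amal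
open Cfsg.Agent.H495.QCo.Nat24
open Cfsg.Agent.SporadicA.Co0Mono (signCo0)
open Cfsg.Agent.SporadicA.Co1Simple (N allOne)
open Cfsg.Agent.H419.LeechIrr (repC trace_repC)
open Cfsg.Agent.Characters.Core

variable {W : Type*} [AddCommGroup W] [Module ℂ W]

/-- **an odd representation without triad weights contains the natural one** -/
theorem exists_nat [FiniteDimensional ℂ W] {R : Co0 →* (W →ₗ[ℂ] W)} (hodd : Odd' R) (hb : mB R = 0)
    (ha : mA R ≠ 0) : ∃ f : (GolayPt → ℂ) →ₗ[ℂ] W, f ≠ 0 ∧ ∀ g : Co0, R g ∘ₗ f = f ∘ₗ repC g := by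
  have hfin := CpAutBig.CoZero.finite_co0
  have hKN : K ≤ N := inf_le_left
  have hKN' : K ≤ N' := inf_le_right
  have h1 : ∀ S : Subgroup Co0, K ≤ S → finrank ℂ (Hm repC repC S) = 1 := fun S hS =>
    finrank_self repC S fun f hf => scalar_of_comm f fun k hk => hf k (hS hk)
  have hN : finrank ℂ (Hm repC R N) = mA R := by
    rw [finrank_of_trace repC R (fun g hg => trace_N hodd hb hg), h1 N hKN, mul_one]
  have hN' : finrank ℂ (Hm repC R N') = mA R := by
    rw [finrank_conj repC R (A := N) (B := N') xi (fun g => mem_N'), hN]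
  have hK : finrank ℂ (Hm repC R K) = mA R := by
    rw [finrank_of_trace repC R (fun g hg => trace_N hodd hb (hKN hg)), h1 K le_rfl, mul_one]
  exact exists_map sup_eq_top hKN hKN' ha hN hN' hK

/-- the natural representation -/
noncomputable def nat : Representation ℂ Co0 (GolayPt → ℂ) := repC

/-- the natural character -/
theorem char_nat : nat.character = Cfsg.Agent.H264.QS.CoSieve.nu := by
  funext g
  exact trace_repC g

/-- the natural character is irreducible -/
theorem isIrr_nat : IsIrrCharacter Co0 Cfsg.Agent.H264.QS.CoSieve.nu := by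
  have hfin := CpAutBig.CoZero.finite_co0
  rw [← char_nat]
  exact isIrr_of_scalar nat fun f hf => scalar_of_comm f fun k _ => hf k

/-- **Characters of `Co0`** -/
theorem eq_nu_of_lt {n : ℕ} {ρ : Representation ℂ Co0 (Fin n → ℂ)} (hirr : ρ.IsIrreducible)
    (hz : ∃ z ∈ Subgroup.center Co0, ρ.character z ≠ ρ.character 1) (h23 : ¬ 23 ∣ n) (hn : n < 2048) :
    ρ.character = Cfsg.Agent.H264.QS.CoSieve.nu := by
  have hfin := CpAutBig.CoZero.finite_co0
  have hodd : Odd' (ρ : Co0 →* _) := by
    obtain ⟨z, hzc, hzn⟩ := hz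
    obtain ⟨c, hc⟩ := Cfsg.Agent.Characters.Central.exists_smul_of_comm ρ hirr (ρ z) (fun g => by
      rw [← map_mul, ← map_mul, (Subgroup.mem_center_iff.1 hzc g)])
    rcases Cfsg.Agent.Schreier.Co1.mem_center.1 hzc with rfl | rfl
    · exact absurd rfl hzn
    · have h1 : (c * c) • (1 : Module.End ℂ (Fin n → ℂ)) = 1 := by
        have h2 : ρ (signCo0 allOne) * ρ (signCo0 allOne) = 1 := by
          rw [← map_mul, Cfsg.Agent.SporadicA.Co0Mono.signCo0_mul_self, map_one]
        rw [hc, smul_mul_smul_comm, mul_one] at h2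
        exact h2
      have hn0 : n ≠ 0 := fun h => h23 (h ▸ dvd_zero _)
      have hne : Nonempty (Fin n) := ⟨⟨0, Nat.pos_of_ne_zero hn0⟩⟩
      have h3 : c * c = 1 := by
        have h4 := congrArg (fun f : Module.End ℂ (Fin n → ℂ) => f (fun _ => 1) hne.some) h1
        simpa using h4
      rcases mul_self_eq_one_iff.1 h3 with h | h
      · exfalso
        apply hzn
        show LinearMap.trace ℂ _ (ρ (signCo0 allOne)) = LinearMap.trace ℂ _ (ρ 1)
        rw [hc, h, one_smul, map_one ρ]
      · show ρ (signCo0 allOne) = -1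
        rw [hc, h]
        exact neg_one_smul ℂ (1 : Module.End ℂ (Fin n → ℂ))
  have h1 := mult_sum0 hodd
  rw [Module.finrank_fin_fun] at h1
  have hb : mB (ρ : Co0 →* _) = 0 := by
    by_contra hb
    have h2 : mB (ρ : Co0 →* _) = 1 := by omega
    have h3 : mA (ρ : Co0 →* _) = 0 := by omega
    rw [h2, h3] at h1
    apply h23
    rw [← h1]
    norm_num
  have ha : mA (ρ : Co0 →* _) ≠ 0 := by
    intro ha
    rw [ha, hb] at h1
    apply h23
    rw [← h1]
    norm_num
  obtain ⟨f, hf0, hf⟩ := exists_nat hodd hb ha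
  rw [← char_nat]
  have hi : IsIrrCharacter Co0 nat.character := by
    rw [char_nat]; exact isIrr_nat
  exact char_eq_of_map hi ⟨n, ρ, hirr, rfl⟩ hf0 hf

/-- **The faithful irreducible characters of `Co0` of degree prime to 23 are the natural one or have degree at
least 2048.** -/
theorem deg2 : Cfsg.Agent.H264.QS.CoSieve.Deg2 2048 := by
  intro χ hz h23
  rcases χ with ⟨χ, n, ρ, hirr, rfl⟩
  have hd : charDegree ρ.character = n := by
    unfold charDegree
    rw [Representation.char_one, Module.finrank_fin_fun]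
    exact Nat.floor_natCast n
  by_cases hn : n < 2048
  · exact Or.inl (eq_nu_of_lt hirr hz (by rw [← hd]; exact h23) hn)
  · right
    show 2048 ≤ charDegree ρ.character
    rw [hd]
    omega

end Cfsg.Agent.H495.QCo.Main
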