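import Cfsg.Agent.H495.QCo.Proj
import Cfsg.Agent.H495.QCo.KSub
import Cfsg.Agent.H419.LeechIrr

/-!
# The natural representation of `Co0` (helper495)

* `odd_repC` : `-1` acts as `-1`;
* `scalar_of_comm` : an endomorphism commuting with the group `K = N ∩ N^ξ` is a scalar.
-/

set_option autoImplicit false

namespace Cfsg.Agent.H495.QCo.Nat24

open Module Cfsg
open Cfsg.Agent.H847.Co1Small (sg sg_zero sg_one zcases)
open Cfsg.Agent.H495.QCo.Wt Cfsg.Agent.H495.QCo.Proj Cfsg.Agent.H495.QCo.KSub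
open Cfsg.Agent.SporadicA.Co0Mono hiding smul_add smul_sub smul_neg smul_zero
open Cfsg.Agent.SporadicA.Co1Simple (allOne allOne_smul perm_smul_e8)
open Cfsg.Agent.SporadicStructure.Co0Base (e8 e8_coe)
open Cfsg.Agent.H419.LeechIrr (repC trace_repC toC repC_toC)

variable {U : Type*} [AddCommGroup U] [Module ℂ U]

theorem toC_e8 (p : GolayPt) : toC (e8 p) = (8 : ℂ) • Pi.single p (1 : ℂ) := by
  funext j
  rw [Pi.smul_apply, smul_eq_mul]
  show (((e8 p : leechLattice) : GolayPt → ℤ) j : ℂ) = _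
  rw [e8_coe]
  by_cases h : j = p
  · subst h; simp
  · simp [h]

theorem single_eq (p : GolayPt) : (Pi.single p (1 : ℂ) : GolayPt → ℂ) = (1 / 8 : ℂ) • toC (e8 p) := by
  rw [toC_e8, smul_smul]
  norm_num

theorem ext_b {f g : (GolayPt → ℂ) →ₗ[ℂ] U} (h : ∀ p, f (toC (e8 p)) = g (toC (e8 p))) : f = g := by
  apply LinearMap.pi_ext'
  intro p
  ext1
  show f (Pi.single p (1 : ℂ)) = g (Pi.single p (1 : ℂ))
  rw [single_eq, map_smul, map_smul, h]

theorem sgn_sg (a : ZMod 2) : ((sgn a : ℤ) : ℂ) = sg a := by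
  rcases zcases a with rfl | rfl
  · rw [sgn_zero, sg_zero]; norm_num
  · rw [sgn_one, sg_one]; norm_num

theorem repC_sign (c : golayCode) (w : GolayPt → ℂ) (q : GolayPt) :
    repC (signCo0 c) w q = sg ((c : GolayPt → ZMod 2) q) * w q := by
  have h : repC (signCo0 c) =
      LinearMap.pi fun q => sg ((c : GolayPt → ZMod 2) q) • (LinearMap.proj q : (GolayPt → ℂ) →ₗ[ℂ] ℂ) := by
    apply ext_b
    intro p
    funext q
    rw [repC_toC]
    show (((signCo0 c • e8 p : leechLattice) : GolayPt → ℤ) q : ℂ) =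
      sg ((c : GolayPt → ZMod 2) q) * (((e8 p : leechLattice) : GolayPt → ℤ) q : ℂ)
    rw [signCo0_smul, signMap_apply]
    push_cast
    rw [sgn_sg]
  rw [h]
  rfl

theorem odd_repC : Odd' repC := by
  show repC (signCo0 allOne) = -1
  apply ext_b
  intro p
  rw [repC_toC, allOne_smul]
  funext q
  show (((-(e8 p) : leechLattice) : GolayPt → ℤ) q : ℂ) = -(((e8 p : leechLattice) : GolayPt → ℤ) q : ℂ)
  have : ((-(e8 p) : leechLattice) : GolayPt → ℤ) q = -((e8 p : leechLattice) : GolayPt → ℤ) q := rfl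
  rw [this]
  push_cast
  rfl

theorem repC_perm (σ : M24) (p : GolayPt) :
    repC (permCo0 σ) (toC (e8 p)) = toC (e8 ((σ : Equiv.Perm GolayPt) p)) := by
  rw [repC_toC, perm_smul_e8]

/-- **the group `K` acts irreducibly** -/
theorem scalar_of_comm (f : (GolayPt → ℂ) →ₗ[ℂ] (GolayPt → ℂ)) (hf : ∀ k ∈ K, f * repC k = repC k * f) :
    ∃ t : ℂ, f = t • (1 : (GolayPt → ℂ) →ₗ[ℂ] (GolayPt → ℂ)) := by
  have hf' : ∀ k ∈ K, ∀ w, f (repC k w) = repC k (f w) := fun k hk w =>
    congrArg (fun g : (GolayPt → ℂ) →ₗ[ℂ] (GolayPt → ℂ) => g w) (hf k hk)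
  -- diagonal
  have h1 : ∀ p q : GolayPt, p ≠ q → f (toC (e8 p)) q = 0 := by
    intro p q hpq
    obtain ⟨c, hc, hcpq⟩ := exists_sep hpq
    have h2 := hf' _ hc (toC (e8 p))
    have h3 : repC (signCo0 c) (toC (e8 p)) = sg ((c : GolayPt → ZMod 2) p) • toC (e8 p) := by
      funext j
      rw [repC_sign, Pi.smul_apply, smul_eq_mul, toC_e8, Pi.smul_apply, smul_eq_mul]
      by_cases hj : j = p
      · rw [hj]
      · simp [hj]
    rw [h3, map_smul] at h2
    have h4 := congrFun h2 q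
    rw [repC_sign, Pi.smul_apply, smul_eq_mul] at h4
    have h5 : (sg ((c : GolayPt → ZMod 2) p) - sg ((c : GolayPt → ZMod 2) q)) * f (toC (e8 p)) q = 0 := by
      rw [sub_mul, h4, sub_self]
    refine (mul_eq_zero.1 h5).resolve_left ?_
    rcases zcases ((c : GolayPt → ZMod 2) p) with hp | hp <;> rcases zcases ((c : GolayPt → ZMod 2) q) with hq | hq
    · exact absurd (hp.trans hq.symm) hcpq
    · rw [hp, hq, sg_zero, sg_one]; norm_num
    · rw [hp, hq, sg_zero, sg_one]; norm_num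
    · exact absurd (hp.trans hq.symm) hcpq
  have h2 : ∀ p : GolayPt, f (toC (e8 p)) = (f (toC (e8 p)) p / 8) • toC (e8 p) := by
    intro p
    funext j
    rw [Pi.smul_apply, smul_eq_mul, toC_e8]
    by_cases hj : j = p
    · rw [hj, Pi.smul_apply, Pi.single_eq_same, smul_eq_mul]
      ring
    · have h3 := h1 p j (Ne.symm hj)
      rw [toC_e8] at h3
      rw [h3, Pi.smul_apply, Pi.single_eq_of_ne hj, smul_zero, mul_zero]
  -- constant
  have h3 : ∀ p q : GolayPt, f (toC (e8 p)) p = f (toC (e8 q)) q := by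
    intro p q
    obtain ⟨σ, hσ, hpq⟩ := exists_perm p q
    have h4 := hf' _ hσ (toC (e8 p))
    rw [repC_perm, hpq, h2 p, map_smul, repC_perm, hpq] at h4
    have h5 := congrFun h4 q
    rw [h5, Pi.smul_apply, smul_eq_mul, toC_e8 q, Pi.smul_apply, Pi.single_eq_same, smul_eq_mul]
    ring
  refine ⟨f (toC (e8 none)) none / 8, ext_b fun p => ?_⟩
  rw [h2 p, h3 p none]
  rfl

end Cfsg.Agent.H495.QCo.Nat24
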