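import Cfsg.Agent.H495.QCo.Wt
import Cfsg.Agent.SporadicA.M24Frames

/-!
# Odd representations of `Co0`: the projections onto the point weights (helper495)
-/

set_option autoImplicit false

namespace Cfsg.Agent.H495.QCo.Proj

open Module Cfsg Cfsg.Agent.H847.Avg
open Cfsg.Agent.H847.Co1Small Cfsg.Agent.H495.QCo.Wt
open Cfsg.Agent.SporadicA.Co0Mono
open Cfsg.Agent.SporadicA.Co1Simple (allOne signCo0_add_self)

variable {W : Type*} [AddCommGroup W] [Module ℂ W]

noncomputable instance fin_code : Fintype (Multiplicative golayCode) :=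
  have : Fintype golayCode := Fintype.ofFinite _
  inferInstanceAs (Fintype golayCode)

/-- the character of a point -/
theorem chi_single (p : GolayPt) (c : Multiplicative golayCode) :
    chi {p} c = sg (((Multiplicative.toAdd c : golayCode) : GolayPt → ZMod 2) p) := by
  unfold chi
  rw [Finset.sum_singleton]

/-- the projection onto the weight space of the point `p` -/
noncomputable def P (R : Co0 →* (W →ₗ[ℂ] W)) (p : GolayPt) : W →ₗ[ℂ] W := avg (rc R) (chi {p})

theorem sign_mul_P (R : Co0 →* (W →ₗ[ℂ] W)) (c : golayCode) (p : GolayPt) :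
    R (signCo0 c) * P R p = sg ((c : GolayPt → ZMod 2) p) • P R p := by
  have h := mul_avg (rc R) (lin_chi {p}) (Multiplicative.ofAdd c)
  rw [chi_single] at h
  exact h

theorem P_mul_sign (R : Co0 →* (W →ₗ[ℂ] W)) (c : golayCode) (p : GolayPt) :
    P R p * R (signCo0 c) = sg ((c : GolayPt → ZMod 2) p) • P R p := by
  have h := avg_mul (rc R) (lin_chi {p}) (Multiplicative.ofAdd c)
  rw [chi_single] at h
  exact h

theorem P_mul_self (R : Co0 →* (W →ₗ[ℂ] W)) (p : GolayPt) : P R p * P R p = P R p := by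
  ext x
  exact avg_eq (rc R) (lin_chi {p}) fun b => apply_avg (rc R) (lin_chi {p}) b x

theorem P_mul_P (R : Co0 →* (W →ₗ[ℂ] W)) {p q : GolayPt} {c : golayCode}
    (h : (c : GolayPt → ZMod 2) p ≠ (c : GolayPt → ZMod 2) q) : P R p * P R q = 0 := by
  have h1 : P R p * R (signCo0 c) * P R q = P R p * (R (signCo0 c) * P R q) := mul_assoc _ _ _
  rw [P_mul_sign, sign_mul_P, smul_mul_assoc, mul_smul_comm] at h1
  have h2 : (sg ((c : GolayPt → ZMod 2) p) - sg ((c : GolayPt → ZMod 2) q)) • (P R p * P R q) = 0 := by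
    rw [sub_smul, h1, sub_self]
  refine (smul_eq_zero.1 h2).resolve_left ?_
  rcases zcases ((c : GolayPt → ZMod 2) p) with hp | hp <;> rcases zcases ((c : GolayPt → ZMod 2) q) with hq | hq
  · exact absurd (hp.trans hq.symm) h
  · rw [hp, hq, sg_zero, sg_one]; norm_num
  · rw [hp, hq, sg_zero, sg_one]; norm_num
  · exact absurd (hp.trans hq.symm) h

theorem perm_mul_P (R : Co0 →* (W →ₗ[ℂ] W)) (σ : M24) (p : GolayPt) :
    R (permCo0 σ) * P R p = P R ((σ : Equiv.Perm GolayPt) p) * R (permCo0 σ) := by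
  unfold P avg
  rw [mul_smul_comm, smul_mul_assoc]
  congr 1
  rw [Finset.mul_sum, Finset.sum_mul]
  let e : Multiplicative golayCode ≃ Multiplicative golayCode :=
    { toFun := fun c => Multiplicative.ofAdd (wordPerm σ (Multiplicative.toAdd c))
      invFun := fun c => Multiplicative.ofAdd (wordPerm σ⁻¹ (Multiplicative.toAdd c))
      left_inv := fun c => by
        show Multiplicative.ofAdd (wordPerm σ⁻¹ (wordPerm σ (Multiplicative.toAdd c))) = c
        rw [← Cfsg.Agent.SporadicA.Co1Simple.wordPerm_mul, inv_mul_cancel]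
        rfl
      right_inv := fun c => by
        show Multiplicative.ofAdd (wordPerm σ (wordPerm σ⁻¹ (Multiplicative.toAdd c))) = c
        rw [← Cfsg.Agent.SporadicA.Co1Simple.wordPerm_mul, mul_inv_cancel]
        rfl }
  refine Fintype.sum_equiv e _ _ fun c => ?_
  rw [mul_smul_comm, smul_mul_assoc, rc_apply, rc_apply, ← map_mul, ← map_mul, perm_mul_sign, chi_single, chi_single]
  have h1 : (((Multiplicative.toAdd (e c) : golayCode) : GolayPt → ZMod 2) ((σ : Equiv.Perm GolayPt) p)) =
      ((Multiplicative.toAdd c : golayCode) : GolayPt → ZMod 2) p := by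
    show (wordPerm σ (Multiplicative.toAdd c) : GolayPt → ZMod 2) ((σ : Equiv.Perm GolayPt) p) = _
    rw [wordPerm_apply, Equiv.symm_apply_apply]
  rw [h1]
  rfl

theorem exists_M24 (p q : GolayPt) : ∃ σ : M24, (σ : Equiv.Perm GolayPt) p = q := by
  have hb : Function.Injective (![some 0, some 1, some 2, some 3, some 4] : Fin 5 → GolayPt) := by decide
  have key : ∀ p : GolayPt, ∃ a : Fin 5 → GolayPt, Function.Injective a ∧ a 0 = p := fun p =>
    ⟨Equiv.swap (some 0) p ∘ ![some 0, some 1, some 2, some 3, some 4], (Equiv.injective _).comp hb,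
      Equiv.swap_apply_left _ _⟩
  obtain ⟨a, ha, ha0⟩ := key p
  obtain ⟨b, hb, hb0⟩ := key q
  obtain ⟨g, hg, h⟩ := Cfsg.Agent.SporadicA.M24Frames.five_transitive a b ha hb
  exact ⟨⟨g, hg⟩, by rw [← ha0, ← hb0]; exact h 0⟩

theorem trace_P_eq (R : Co0 →* (W →ₗ[ℂ] W)) (p q : GolayPt) :
    LinearMap.trace ℂ W (P R p) = LinearMap.trace ℂ W (P R q) := by
  obtain ⟨σ, hσ⟩ := exists_M24 p q
  have h1 : P R q = R (permCo0 σ) * P R p * R (permCo0 σ)⁻¹ := by
    rw [perm_mul_P, hσ, mul_assoc, ← map_mul, mul_inv_cancel, map_one, mul_one]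
  rw [h1, LinearMap.trace_mul_comm, ← mul_assoc, ← map_mul, inv_mul_cancel, map_one, one_mul]

theorem trace_P [FiniteDimensional ℂ W] (R : Co0 →* (W →ₗ[ℂ] W)) (p : GolayPt) :
    LinearMap.trace ℂ W (P R p) = mA R := by
  rw [trace_P_eq R p (some 0)]
  exact trace_avg (rc R) (lin_chi {some 0})

end Cfsg.Agent.H495.QCo.Proj
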