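import Cfsg.Agent.H495.QCo.Proj
import Cfsg.Agent.H495.QCo.KSub
import Cfsg.Agent.H495.QCo.Nat24
import Cfsg.Agent.CoOneType.InvMain
import Cfsg.Agent.S0377

/-!
# Odd representations of `Co0` without triad weights: the traces on the monomial group (helper495)
-/

set_option autoImplicit false

namespace Cfsg.Agent.H495.QCo.Sum

open Module Cfsg Cfsg.Agent.H847.Avg
open Cfsg.Agent.H847.Co1Small Cfsg.Agent.H495.QCo.Wt Cfsg.Agent.H495.QCo.Proj Cfsg.Agent.H495.QCo.KSub
open Cfsg.Agent.SporadicA.Co0Mono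
open Cfsg.Agent.SporadicA.Co1Simple (allOne signCo0_add_self)
open Cfsg.Agent.CoOneType.SignFacts (wt sup wt_cases)
open Cfsg.Agent.H419.LeechIrr (repC trace_repC)
open Cfsg.Agent.Co2Type.Mono
open Cfsg.Agent.SporadicA.GolayBase (popcount pt idx)
open Cfsg.Agent.J4.M24InvolData (P1)
open Cfsg.Agent.J4.M24Invol (ok_P1)
open Cfsg.Agent.SporadicStructure.M24El (el el_smul_pt)
open Cfsg.Agent.H495.QCo.Nat24 (odd_repC)

variable {W : Type*} [AddCommGroup W] [Module ℂ W]

/-! ### Idempotents -/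

theorem isProj_range {E : W →ₗ[ℂ] W} (hE : E * E = E) : LinearMap.IsProj (LinearMap.range E) E :=
  ⟨fun x => ⟨x, rfl⟩, by
    rintro _ ⟨x, rfl⟩
    exact congrArg (fun f : W →ₗ[ℂ] W => f x) hE⟩

theorem idem_trace [FiniteDimensional ℂ W] {E : W →ₗ[ℂ] W} (hE : E * E = E) :
    LinearMap.trace ℂ W E = (finrank ℂ (LinearMap.range E) : ℂ) := (isProj_range hE).trace

theorem idem_zero [FiniteDimensional ℂ W] {E : W →ₗ[ℂ] W} (h : finrank ℂ (LinearMap.range E) = 0) : E = 0 := by
  rw [Submodule.finrank_eq_zero] at h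
  exact LinearMap.range_eq_bot.1 h

/-! ### The sum of the projections -/

theorem P_orth (R : Co0 →* (W →ₗ[ℂ] W)) {p q : GolayPt} (h : p ≠ q) : P R p * P R q = 0 := by
  obtain ⟨c, -, hc⟩ := exists_sep h
  exact P_mul_P R hc

theorem card_pt : Fintype.card GolayPt = 24 := by
  rw [← Finset.card_univ, Cfsg.Agent.SporadicStructure.MinShapes.card_pt]

theorem sum_P [FiniteDimensional ℂ W] {R : Co0 →* (W →ₗ[ℂ] W)} (hodd : Odd' R) (hb : mB R = 0) :
    ∑ p, P R p = 1 := by
  classical
  have hQ : (∑ p, P R p) * (∑ p, P R p) = ∑ p, P R p := by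
    rw [Finset.sum_mul]
    refine Finset.sum_congr rfl fun p _ => ?_
    rw [Finset.mul_sum, Finset.sum_eq_single p (fun q _ hq => P_orth R (Ne.symm hq))
      (fun h => absurd (Finset.mem_univ _) h), P_mul_self]
  have hE : (1 - ∑ p, P R p) * (1 - ∑ p, P R p) = 1 - ∑ p, P R p := by
    rw [mul_sub, sub_mul, sub_mul, hQ]
    simp
  have ht : LinearMap.trace ℂ W (1 - ∑ p, P R p) = 0 := by
    have h1 := mult_sum0 hodd
    rw [hb, mul_zero, add_zero] at h1
    rw [map_sub, LinearMap.trace_one, map_sum, Finset.sum_congr rfl fun p _ => trace_P R p, Finset.sum_const,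
      Finset.card_univ, card_pt, ← h1]
    push_cast
    rw [nsmul_eq_mul]
    push_cast
    ring
  have h0 := idem_zero (E := 1 - ∑ p, P R p) (by
    have h2 := idem_trace hE
    rw [ht] at h2
    exact_mod_cast h2.symm)
  exact (sub_eq_zero.1 h0).symm

/-- a permutation moving the point `p` -/
theorem trace_move (R : Co0 →* (W →ₗ[ℂ] W)) {σ : M24} {p : GolayPt} (h : (σ : Equiv.Perm GolayPt) p ≠ p) (c : golayCode) :
    LinearMap.trace ℂ W (R (signCo0 c) * (R (permCo0 σ) * P R p)) = 0 := by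
  have h1 : R (signCo0 c) * (R (permCo0 σ) * P R p) =
      sg ((c : GolayPt → ZMod 2) ((σ : Equiv.Perm GolayPt) p)) • (R (permCo0 σ) * P R p) := by
    rw [perm_mul_P, ← mul_assoc, sign_mul_P, smul_mul_assoc]
  rw [h1, map_smul]
  have h2 : R (permCo0 σ) * P R p = (R (permCo0 σ) * P R p) * P R p := by rw [mul_assoc, P_mul_self]
  rw [h2, LinearMap.trace_mul_comm, perm_mul_P, ← mul_assoc, P_orth R (Ne.symm h), zero_mul, map_zero, smul_eq_mul,
    mul_zero]

/-- the trace on a monomial element -/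
theorem trace_mono [FiniteDimensional ℂ W] {R : Co0 →* (W →ₗ[ℂ] W)} (hodd : Odd' R) (hb : mB R = 0)
    (hfix : ∀ (σ : M24) (p : GolayPt), (σ : Equiv.Perm GolayPt) p = p → R (permCo0 σ) * P R p = P R p)
    (c : golayCode) (σ : M24) :
    LinearMap.trace ℂ W (R (signCo0 c * permCo0 σ)) =
      mA R * ∑ p, if (σ : Equiv.Perm GolayPt) p = p then sg ((c : GolayPt → ZMod 2) p) else 0 := by
  classical
  have h1 : R (signCo0 c * permCo0 σ) = ∑ p, R (signCo0 c) * (R (permCo0 σ) * P R p) := by
    rw [← Finset.mul_sum, ← Finset.mul_sum, sum_P hodd hb, mul_one, map_mul]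
  rw [h1, map_sum, Finset.mul_sum]
  refine Finset.sum_congr rfl fun p _ => ?_
  by_cases hp : (σ : Equiv.Perm GolayPt) p = p
  · rw [if_pos hp, hfix σ p hp, sign_mul_P, map_smul, trace_P, smul_eq_mul, mul_comm]
  · rw [if_neg hp, mul_zero, trace_move R hp]

/-! ### The involution -/

/-- the involution -/
noncomputable def tau : M24 := el P1

theorem tau_apply (p : GolayPt) : (tau : Equiv.Perm GolayPt) p = pt (Cfsg.Agent.SporadicA.GolayPerm.papp P1 (idx p)) := by
  exact el_smul_pt ok_P1 p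

theorem card_fix : (Finset.univ.filter fun p => (tau : Equiv.Perm GolayPt) p = p).card = 8 := by
  have h : (Finset.univ.filter fun p => (tau : Equiv.Perm GolayPt) p = p) =
      Finset.univ.filter fun p => pt (Cfsg.Agent.SporadicA.GolayPerm.papp P1 (idx p)) = p :=
    Finset.filter_congr fun p _ => by rw [tau_apply]
  rw [h]
  decide +kernel

theorem tau_sq : tau * tau = 1 := by
  have h : el (Cfsg.Agent.SporadicA.GolayPerm.pcomp P1 P1) = 1 := by
    have h1 : Cfsg.Agent.SporadicA.GolayPerm.pcomp P1 P1 = Cfsg.Agent.SporadicStructure.M24El.idP := by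
      decide +kernel
    rw [h1, Cfsg.Agent.SporadicStructure.M24El.el_idP]
  rw [← h, Cfsg.Agent.SporadicStructure.M24El.el_pcomp ok_P1 ok_P1]
  rfl

theorem tr8_tau : tr8 (permCo0 tau) = 64 := by
  have h1 : permCo0 tau = mo 0 P1 := by
    unfold mo tau
    rw [cd_zero, signCo0_zero, one_mul]
  rw [h1, tr8_mo Cfsg.Agent.SporadicA.GolayBase.isCode_zero ok_P1]
  have h2 : trN 0 P1 = 8 := by decide +kernel
  rw [h2]
  norm_num

theorem finrank_nat : finrank ℂ (GolayPt → ℂ) = 24 := by
  rw [finrank_fintype_fun_eq_card, card_pt]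

theorem nat_mA : mA repC = 1 ∧ mB repC = 0 := by
  have h := mult_sum0 odd_repC
  rw [finrank_nat] at h
  omega

/-- `tau` is conjugate to an octad sign change -/
theorem exists_conj_tau : ∃ (g : Co0) (c : golayCode), wt c = 8 ∧ g * permCo0 tau * g⁻¹ = signCo0 c := by
  obtain ⟨g, c, hc⟩ := Cfsg.Agent.CoOneType.InvMain.conj_sign_of_sq_one (permCo0 tau)
    (by rw [← map_mul, tau_sq, map_one])
  refine ⟨g, c, ?_, hc⟩
  obtain ⟨o, ho⟩ := exists_octad
  have h1 := mA_eq odd_repC ho
  rw [nat_mA.1, finrank_nat] at h1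
  have hv : LinearMap.trace ℂ _ (repC (signCo0 o)) = 8 := by
    push_cast at h1
    linear_combination (-1 / 506 : ℂ) * h1
  have h2 : LinearMap.trace ℂ _ (repC (signCo0 c)) = 8 := by
    rw [← hc, Wt.trace_conj, trace_repC, tr8_tau]
    norm_num
  rw [trace_eq0 odd_repC ho, finrank_nat, hv] at h2
  unfold tt0 at h2
  rcases wt_cases c with h | h | h | h | h <;> rw [h] at h2
  · norm_num at h2
  · exact h
  · norm_num at h2
  · norm_num at h2
  · norm_num at h2

theorem trace_tau [FiniteDimensional ℂ W] {R : Co0 →* (W →ₗ[ℂ] W)} (hodd : Odd' R) (hb : mB R = 0) :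
    LinearMap.trace ℂ W (R (permCo0 tau)) = 8 * mA R := by
  obtain ⟨g, c, h8, hc⟩ := exists_conj_tau
  rw [← Wt.trace_conj R g, hc]
  have h1 := mA_eq hodd h8
  have h3 := mB_eq hodd h8
  rw [hb] at h3
  push_cast at h3
  linear_combination (-1 / 512 : ℂ) * h1 + (1 / 512 : ℂ) * h3

/-- the multiplicity of the eigenvalue `-1` of an involution on a weight space -/
noncomputable def Yp (R : Co0 →* (W →ₗ[ℂ] W)) (σ : M24) (p : GolayPt) : W →ₗ[ℂ] W :=
  (1 / 2 : ℂ) • (P R p - R (permCo0 σ) * P R p)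

theorem Yp_idem (R : Co0 →* (W →ₗ[ℂ] W)) {σ : M24} (hσ : σ * σ = 1) {p : GolayPt}
    (hp : (σ : Equiv.Perm GolayPt) p = p) : Yp R σ p * Yp R σ p = Yp R σ p := by
  have h1 : R (permCo0 σ) * P R p = P R p * R (permCo0 σ) := by
    have := perm_mul_P R σ p
    rwa [hp] at this
  have h2 : R (permCo0 σ) * R (permCo0 σ) = 1 := by rw [← map_mul, ← map_mul, hσ, map_one, map_one]
  have h3 : (R (permCo0 σ) * P R p) * (R (permCo0 σ) * P R p) = P R p := by
    calc (R (permCo0 σ) * P R p) * (R (permCo0 σ) * P R p) =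
        R (permCo0 σ) * (P R p * R (permCo0 σ)) * P R p := by simp only [mul_assoc]
      _ = (R (permCo0 σ) * R (permCo0 σ)) * (P R p * P R p) := by rw [← h1]; simp only [mul_assoc]
      _ = P R p := by rw [h2, one_mul, P_mul_self]
  have h4 : P R p * (R (permCo0 σ) * P R p) = R (permCo0 σ) * P R p := by
    rw [h1, ← mul_assoc, P_mul_self]
  have h5 : (R (permCo0 σ) * P R p) * P R p = R (permCo0 σ) * P R p := by rw [mul_assoc, P_mul_self]
  unfold Yp
  rw [smul_mul_smul_comm, mul_sub, sub_mul, sub_mul, P_mul_self, h3, h4, h5]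
  have h6 : P R p - R (permCo0 σ) * P R p - (R (permCo0 σ) * P R p - P R p) =
      (2 : ℂ) • (P R p - R (permCo0 σ) * P R p) := by
    rw [two_smul]
    abel
  rw [h6, smul_smul]
  norm_num

theorem tau_fix [FiniteDimensional ℂ W] {R : Co0 →* (W →ₗ[ℂ] W)} (hodd : Odd' R) (hb : mB R = 0)
    {p : GolayPt} (hp : (tau : Equiv.Perm GolayPt) p = p) : R (permCo0 tau) * P R p = P R p := by
  classical
  have h1 : LinearMap.trace ℂ W (R (permCo0 tau)) =
      ∑ p, LinearMap.trace ℂ W (R (permCo0 tau) * P R p) := by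
    rw [← map_sum, ← Finset.mul_sum, sum_P hodd hb, mul_one]
  have h2 : ∑ p, LinearMap.trace ℂ W (R (permCo0 tau) * P R p) =
      ∑ p ∈ Finset.univ.filter fun p => (tau : Equiv.Perm GolayPt) p = p,
        LinearMap.trace ℂ W (R (permCo0 tau) * P R p) := by
    symm
    apply Finset.sum_subset (Finset.subset_univ _)
    intro q _ hq
    rw [Finset.mem_filter, not_and] at hq
    have h3 := trace_move R (hq (Finset.mem_univ q)) 0
    rwa [signCo0_zero, map_one, one_mul] at h3
  have h3 : ∀ q ∈ Finset.univ.filter fun p => (tau : Equiv.Perm GolayPt) p = p,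
      LinearMap.trace ℂ W (R (permCo0 tau) * P R q) =
        mA R - 2 * (finrank ℂ (LinearMap.range (Yp R tau q)) : ℂ) := by
    intro q hq
    have h4 := idem_trace (Yp_idem R tau_sq (Finset.mem_filter.1 hq).2)
    rw [← h4]
    unfold Yp
    rw [map_smul, map_sub, trace_P, smul_eq_mul]
    ring
  rw [h2, Finset.sum_congr rfl h3, Finset.sum_sub_distrib, Finset.sum_const, card_fix, ← Finset.mul_sum,
    trace_tau hodd hb, nsmul_eq_mul] at h1
  have h5 : ((∑ q ∈ Finset.univ.filter fun p => (tau : Equiv.Perm GolayPt) p = p,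
      finrank ℂ (LinearMap.range (Yp R tau q)) : ℕ) : ℂ) = 0 := by
    push_cast
    push_cast at h1
    linear_combination (1 / 2 : ℂ) * h1
  have h6 : ∑ q ∈ Finset.univ.filter fun p => (tau : Equiv.Perm GolayPt) p = p,
      finrank ℂ (LinearMap.range (Yp R tau q)) = 0 := by exact_mod_cast h5
  have h7 : Yp R tau p = 0 :=
    idem_zero ((Finset.sum_eq_zero_iff.1 h6) p (Finset.mem_filter.2 ⟨Finset.mem_univ _, hp⟩))
  unfold Yp at h7
  have h8 := (smul_eq_zero.1 h7).resolve_left (by norm_num)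
  exact (sub_eq_zero.1 h8).symm

/-- **the stabiliser of a point acts trivially on its weight space** -/
theorem fix_all [FiniteDimensional ℂ W] {R : Co0 →* (W →ₗ[ℂ] W)} (hodd : Odd' R) (hb : mB R = 0)
    (σ : M24) (p : GolayPt) (hσ : (σ : Equiv.Perm GolayPt) p = p) : R (permCo0 σ) * P R p = P R p := by
  -- it is enough to treat one point
  obtain ⟨p0, hp0⟩ : ∃ p0, (tau : Equiv.Perm GolayPt) p0 = p0 := by
    have h : (Finset.univ.filter fun p => (tau : Equiv.Perm GolayPt) p = p).Nonempty := by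
      rw [← Finset.card_pos, card_fix]; norm_num
    obtain ⟨p0, h0⟩ := h
    exact ⟨p0, (Finset.mem_filter.1 h0).2⟩
  have key : ∀ σ : M24, (σ : Equiv.Perm GolayPt) p0 = p0 → R (permCo0 σ) * P R p0 = P R p0 := by
    let S : Subgroup (MulAction.stabilizer M24 p0) :=
      { carrier := {g | R (permCo0 (g : M24)) * P R p0 = P R p0}
        one_mem' := by
          show R (permCo0 1) * P R p0 = P R p0
          rw [map_one, map_one, one_mul]
        mul_mem' := by
          intro a b ha hb
          show R (permCo0 ((a : M24) * b)) * P R p0 = P R p0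
          rw [map_mul, map_mul, mul_assoc, show R (permCo0 (b : M24)) * P R p0 = P R p0 from hb]
          exact ha
        inv_mem' := by
          intro a ha
          show R (permCo0 ((a : M24)⁻¹)) * P R p0 = P R p0
          have ha' : R (permCo0 (a : M24)) * P R p0 = P R p0 := ha
          calc R (permCo0 ((a : M24)⁻¹)) * P R p0 = R (permCo0 ((a : M24)⁻¹)) * (R (permCo0 (a : M24)) * P R p0) := by
                rw [ha']
            _ = P R p0 := by rw [← mul_assoc, ← map_mul, ← map_mul, inv_mul_cancel, map_one, map_one, one_mul] }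
    have hn : S.Normal := by
      constructor
      intro s hs g
      show R (permCo0 ((g : M24) * s * (g : M24)⁻¹)) * P R p0 = P R p0
      have hg : ((g : M24)⁻¹ : Equiv.Perm GolayPt) p0 = p0 := by
        have h1 : (((g : M24) : M24) : Equiv.Perm GolayPt) p0 = p0 := g.2
        rw [Equiv.Perm.inv_eq_iff_eq]
        exact h1.symm
      have hs' : R (permCo0 (s : M24)) * P R p0 = P R p0 := hs
      have hP : R (permCo0 ((g : M24)⁻¹)) * P R p0 = P R p0 * R (permCo0 ((g : M24)⁻¹)) := by
        have h2 := perm_mul_P R ((g : M24)⁻¹) p0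
        rw [Subgroup.coe_inv, hg] at h2
        exact h2
      rw [map_mul, map_mul, map_mul, map_mul, mul_assoc, hP, mul_assoc, ← mul_assoc (R (permCo0 (s : M24))), hs',
        ← hP, ← mul_assoc, ← map_mul, ← map_mul, mul_inv_cancel, map_one, map_one, one_mul]
    have hsimple := Cfsg.Agent.S0377.result p0
    have htau : (⟨tau, hp0⟩ : MulAction.stabilizer M24 p0) ∈ S := tau_fix hodd hb hp0
    rcases hsimple.eq_bot_or_eq_top_of_normal S hn with h | h
    · exfalso
      rw [h, Subgroup.mem_bot] at htau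
      have h1 : tau = 1 := congrArg Subtype.val htau
      have h2 := card_fix
      have h3 : (Finset.univ.filter fun p => (tau : Equiv.Perm GolayPt) p = p) = Finset.univ := by
        apply Finset.filter_true_of_mem
        intro q _
        rw [h1]
        rfl
      rw [h3, Finset.card_univ, card_pt] at h2
      omega
    · intro σ hσ
      have h1 : (⟨σ, hσ⟩ : MulAction.stabilizer M24 p0) ∈ S := by rw [h]; trivial
      exact h1
  obtain ⟨g, hg⟩ := exists_M24 p0 p
  have h1 : ((g⁻¹ * σ * g : M24) : Equiv.Perm GolayPt) p0 = p0 := by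
    rw [Subgroup.coe_mul, Subgroup.coe_mul, Equiv.Perm.mul_apply, Equiv.Perm.mul_apply, hg, hσ, Subgroup.coe_inv,
      Equiv.Perm.inv_eq_iff_eq]
    exact hg.symm
  have h2 := key _ h1
  have h3 : P R p = R (permCo0 g) * P R p0 * R (permCo0 g⁻¹) := by
    rw [perm_mul_P, hg, mul_assoc, ← map_mul, ← map_mul, mul_inv_cancel, map_one, map_one, mul_one]
  have h4 : R (permCo0 σ) * R (permCo0 g) = R (permCo0 g) * R (permCo0 (g⁻¹ * σ * g)) := by
    rw [← map_mul, ← map_mul, ← map_mul, ← map_mul]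
    congr 2
    group
  rw [h3, ← mul_assoc, ← mul_assoc, h4, mul_assoc (R (permCo0 g)), h2]

/-- **the trace on the monomial group** -/
theorem trace_N [FiniteDimensional ℂ W] {R : Co0 →* (W →ₗ[ℂ] W)} (hodd : Odd' R) (hb : mB R = 0)
    {g : Co0} (hg : g ∈ Cfsg.Agent.SporadicA.Co1Simple.N) :
    LinearMap.trace ℂ W (R g) = mA R * LinearMap.trace ℂ _ (repC g) := by
  obtain ⟨c, σ, rfl⟩ := Cfsg.Agent.SporadicA.Co1Simple.exists_sign_perm hg
  rw [trace_mono hodd hb (fix_all hodd hb), trace_mono odd_repC nat_mA.2 (fix_all odd_repC nat_mA.2), nat_mA.1]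
  push_cast
  ring

end Cfsg.Agent.H495.QCo.Sum
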