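import Cfsg.Agent.H847.Co1Tab

/-!
# Tables for the odd characters of `2^12` (helper495, for S2491 / S2492, group `2.Co1`)

The numbers of code words of each weight with an even and an odd number of points in a set of one and three points.
-/

set_option autoImplicit false

namespace Cfsg.Agent.H495.QCo.Tab

open Cfsg Cfsg.Agent.SporadicA.GolayCount Cfsg.Agent.H847.Co1Tab

theorem tab1 : tab [0] = [(1, 0), (506, 253), (1288, 1288), (253, 506), (0, 1)] := by decide +kernel
theorem tab3 : tab [0, 1, 2] = [(1, 0), (378, 381), (1288, 1288), (381, 378), (0, 1)] := by decide +kernel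

end Cfsg.Agent.H495.QCo.Tab
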