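import Cfsg.Agent.H847.Co1Small
import Cfsg.Agent.CoOneType.InvMain
import Cfsg.Agent.H495.QCo.Tab

/-!
# Odd representations of `Co0`: the weights of `2^12` (helper495, for S2491 / S2492, group `2.Co1`)

For a representation `R` of `Co0` with `R (-1) = -1` the multiplicities `a`, `b` of the weights belonging to a point and
to a triad satisfy `24 a + 2024 b =` degree, `4096 a = 2 d + 506 v`, `4096 b = 2 d - 6 v` (`v` = trace of an octad
sign change).
-/

set_option autoImplicit false

namespace Cfsg.Agent.H495.QCo.Wt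

open Module Cfsg Cfsg.Agent.H847.Avg
open Cfsg.Agent.SporadicA.GolayCount Cfsg.Agent.H847.Co1Tab Cfsg.Agent.H847.Co1Small
open Cfsg.Agent.SporadicA.Co0Mono
open Cfsg.Agent.SporadicA.Co1Simple (allOne signCo0_add_self)
open Cfsg.Agent.CoOneType.SignFacts (wt sup wt_cases wt_add_allOne sup_mem mem_sup notMem_sup)
open Cfsg.Agent.CoOneType.InvMain (exists_perm_octad exists_perm_dodecad word_ext wordPerm_allOne wordPerm_add)

variable {W : Type*} [AddCommGroup W] [Module ℂ W]

/-- the representation of the code -/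
noncomputable def rc (R : Co0 →* (W →ₗ[ℂ] W)) : Multiplicative golayCode →* (W →ₗ[ℂ] W) where
  toFun c := R (signCo0 (Multiplicative.toAdd c))
  map_one' := by
    show R (signCo0 0) = 1
    rw [signCo0_zero, map_one]
  map_mul' a b := by
    show R (signCo0 (Multiplicative.toAdd a + Multiplicative.toAdd b)) = _
    rw [signCo0_add, map_mul]

theorem rc_apply (R : Co0 →* (W →ₗ[ℂ] W)) (c : Multiplicative golayCode) :
    rc R c = R (signCo0 (Multiplicative.toAdd c)) := rfl

/-- the trace as a function of the weight -/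
noncomputable def tt0 (u v : ℂ) (n : ℕ) : ℂ :=
  if n = 0 then u else if n = 8 then v else if n = 12 then 0 else if n = 16 then -v else -u

theorem trace_conj (R : Co0 →* (W →ₗ[ℂ] W)) (g x : Co0) :
    LinearMap.trace ℂ W (R (g * x * g⁻¹)) = LinearMap.trace ℂ W (R x) := by
  rw [map_mul R (g * x) g⁻¹, LinearMap.trace_mul_comm, ← map_mul, ← mul_assoc, inv_mul_cancel, one_mul]

theorem trace_wordPerm (R : Co0 →* (W →ₗ[ℂ] W)) (g : M24) (c : golayCode) :
    LinearMap.trace ℂ W (R (signCo0 (wordPerm g c))) = LinearMap.trace ℂ W (R (signCo0 c)) := by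
  rw [← perm_mul_sign_mul_inv, trace_conj]

/-- the representation is odd -/
def Odd' (R : Co0 →* (W →ₗ[ℂ] W)) : Prop := R (signCo0 allOne) = -1

theorem Odd'.add {R : Co0 →* (W →ₗ[ℂ] W)} (h : Odd' R) (c : golayCode) :
    R (signCo0 (c + allOne)) = -R (signCo0 c) := by
  rw [signCo0_add, map_mul, show R (signCo0 allOne) = -1 from h, mul_neg, mul_one]

theorem mem_octads {c : golayCode} (h : wt c = 8) : support₂ (c : GolayPt → ZMod 2) ∈ octads := ⟨sup_mem c, h⟩

theorem mem_dodecads {c : golayCode} (h : wt c = 12) : support₂ (c : GolayPt → ZMod 2) ∈ dodecads := ⟨sup_mem c, h⟩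

theorem eq_zero_of_wt {c : golayCode} (h : wt c = 0) : c = 0 := by
  apply word_ext
  have h1 : sup c = ∅ := Finset.card_eq_zero.1 h
  show sup c = _
  rw [h1]
  symm
  rw [Finset.eq_empty_iff_forall_notMem]
  intro p hp
  have hp' : p ∈ sup (0 : golayCode) := hp
  rw [mem_sup] at hp'
  exact absurd hp' (by
    show (0 : ZMod 2) ≠ 1
    decide)

theorem trace_eq0 [FiniteDimensional ℂ W] {R : Co0 →* (W →ₗ[ℂ] W)} (hodd : Odd' R) {o : golayCode} (ho : wt o = 8)
    (c : golayCode) : LinearMap.trace ℂ W (R (signCo0 c)) =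
      tt0 (finrank ℂ W) (LinearMap.trace ℂ W (R (signCo0 o))) (wt c) := by
  unfold tt0
  rcases wt_cases c with h | h | h | h | h
  · rw [if_pos h, eq_zero_of_wt h, signCo0_zero, map_one, LinearMap.trace_one]
  · rw [if_neg (by omega), if_pos h]
    obtain ⟨g, hg⟩ := exists_perm_octad (mem_octads ho) (mem_octads h)
    rw [← hg, trace_wordPerm]
  · rw [if_neg (by omega), if_neg (by omega), if_pos h]
    have h1 := wt_add_allOne c
    obtain ⟨g, hg⟩ := exists_perm_dodecad (mem_dodecads h) (mem_dodecads (c := c + allOne) (by omega))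
    have h2 := trace_wordPerm R g c
    rw [hg, hodd.add, map_neg] at h2
    have h3 : (2 : ℂ) * LinearMap.trace ℂ W (R (signCo0 c)) = 0 := by linear_combination -h2
    exact (mul_eq_zero.1 h3).resolve_left (by norm_num)
  · rw [if_neg (by omega), if_neg (by omega), if_neg (by omega), if_pos h]
    have h1 := wt_add_allOne c
    obtain ⟨g, hg⟩ := exists_perm_octad (mem_octads ho) (mem_octads (c := c + allOne) (by omega))
    have h2 := trace_wordPerm R g o
    rw [hg, hodd.add, map_neg] at h2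
    linear_combination -h2
  · rw [if_neg (by omega), if_neg (by omega), if_neg (by omega), if_neg (by omega)]
    have h1 := wt_add_allOne c
    have h2 : c + allOne = 0 := eq_zero_of_wt (by omega)
    have h3 := hodd.add c
    rw [h2, signCo0_zero, map_one] at h3
    have h4 : R (signCo0 c) = -1 := by rw [← neg_eq_iff_eq_neg, ← h3]
    rw [h4, map_neg, LinearMap.trace_one]

/-- the multiplicity of a character -/
theorem mult0 [FiniteDimensional ℂ W] {R : Co0 →* (W →ₗ[ℂ] W)} (hodd : Odd' R) {o : golayCode} (ho : wt o = 8)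
    (S : Finset GolayPt) (bits : List ℕ)
    (hS : ∀ m, sg (∑ p ∈ S, word m p) = if ev bits m then (1 : ℂ) else -1) :
    (4096 : ℂ) * (finrank ℂ (eig (rc R) (chi S)) : ℂ) =
      ∑ n ∈ ({0, 8, 12, 16, 24} : Finset ℕ),
        (((L.countP fun m => popc m == n && ev bits m : ℕ) : ℂ) - ((L.countP fun m => popc m == n && !ev bits m : ℕ) : ℂ)) *
        tt0 (finrank ℂ W) (LinearMap.trace ℂ W (R (signCo0 o))) n := by
  classical
  let _ : Fintype golayCode := Fintype.ofFinite _
  let _ : Fintype (Multiplicative golayCode) := inferInstanceAs (Fintype golayCode)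
  have hcard : (Fintype.card (Multiplicative golayCode) : ℂ) = 4096 := by
    have h1 := sum_code (fun _ => (1 : ℂ))
    have h2 : L.length = 4096 := by decide +kernel
    rw [Finset.sum_const, Finset.card_univ, nsmul_eq_mul, mul_one, List.map_const', List.sum_replicate, nsmul_eq_mul,
      mul_one, h2] at h1
    rw [Fintype.card_congr Multiplicative.toAdd, h1]
    norm_num
  have h1 := trace_avg (rc R) (lin_chi S)
  rw [trace_avg_eq_sum, hcard] at h1
  rw [← h1, ← mul_assoc, mul_inv_cancel₀ (by norm_num), one_mul]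
  rw [← list_sum L _ popc (ev bits) _ popc_mem]
  have h2 := sum_code (fun w => sg (∑ p ∈ S, w p) *
    tt0 (finrank ℂ W) (LinearMap.trace ℂ W (R (signCo0 o))) (support₂ w).card)
  have h3 : (L.map fun m => sg (∑ p ∈ S, word m p) *
      tt0 (finrank ℂ W) (LinearMap.trace ℂ W (R (signCo0 o))) (support₂ (word m)).card) =
      (L.map fun m => (if ev bits m then (1 : ℂ) else -1) *
      tt0 (finrank ℂ W) (LinearMap.trace ℂ W (R (signCo0 o))) (popc m)) := by
    refine List.map_congr_left fun m _ => ?_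
    rw [hS, ← card_pts]
    rfl
  rw [h3] at h2
  rw [← h2]
  refine Fintype.sum_equiv Multiplicative.toAdd _ _ fun c => ?_
  rw [rc_apply, trace_eq0 hodd ho]
  rfl

theorem key1 : ∀ x : Bool, ((if x then (1 : ZMod 2) else 0) = 0) ↔ ([x].countP (fun b => b) % 2 == 0) = true := by decide

theorem key3 : ∀ x y u : Bool, ((if x then (1 : ZMod 2) else 0) + ((if y then (1 : ZMod 2) else 0) +
    (if u then (1 : ZMod 2) else 0)) = 0) ↔ ([x, y, u].countP (fun b => b) % 2 == 0) = true := by decide

theorem hS1 (m : ℕ) : sg (∑ p ∈ ({some 0} : Finset GolayPt), word m p) = if ev [0] m then (1 : ℂ) else -1 := by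
  rw [Finset.sum_singleton]
  have h0 : pos (some 0) = 0 := by decide
  unfold word sg
  rw [h0, ev_eq]
  exact if_congr (key1 _) rfl rfl

theorem hS3 (m : ℕ) : sg (∑ p ∈ ({some 0, some 1, some 2} : Finset GolayPt), word m p) =
    if ev [0, 1, 2] m then (1 : ℂ) else -1 := by
  rw [Finset.sum_insert (by decide), Finset.sum_insert (by decide), Finset.sum_singleton]
  have h0 : pos (some 0) = 0 := by decide
  have h1 : pos (some 1) = 1 := by decide
  have h2 : pos (some 2) = 2 := by decide
  unfold word sg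
  rw [h0, h1, h2, ev_eq]
  exact if_congr (key3 _ _ _) rfl rfl

theorem tab_sum0 (bits : List ℕ) (p0 q0 p1 q1 p2 q2 p3 q3 p4 q4 : ℕ)
    (h : tab bits = [(p0, q0), (p1, q1), (p2, q2), (p3, q3), (p4, q4)]) (u v : ℂ) :
    (∑ n ∈ ({0, 8, 12, 16, 24} : Finset ℕ),
        (((L.countP fun m => popc m == n && ev bits m : ℕ) : ℂ) - ((L.countP fun m => popc m == n && !ev bits m : ℕ) : ℂ)) *
        tt0 u v n) = ((p0 : ℂ) - q0) * u + ((p1 : ℂ) - q1) * v + ((p3 : ℂ) - q3) * (-v) + ((p4 : ℂ) - q4) * (-u) := by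
  unfold tab at h
  simp only [List.map_cons, List.map_nil, List.cons.injEq, Prod.mk.injEq, and_true] at h
  obtain ⟨⟨a0, b0⟩, ⟨a1, b1⟩, ⟨a2, b2⟩, ⟨a3, b3⟩, a4, b4⟩ := h
  rw [Finset.sum_insert (by decide), Finset.sum_insert (by decide), Finset.sum_insert (by decide),
    Finset.sum_insert (by decide), Finset.sum_singleton, a0, b0, a1, b1, a2, b2, a3, b3, a4, b4]
  have t0 : tt0 u v 0 = u := if_pos rfl
  have t1 : tt0 u v 8 = v := by unfold tt0; rw [if_neg (by omega), if_pos rfl]
  have t2 : tt0 u v 12 = 0 := by unfold tt0; rw [if_neg (by omega), if_neg (by omega), if_pos rfl]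
  have t3 : tt0 u v 16 = -v := by
    unfold tt0; rw [if_neg (by omega), if_neg (by omega), if_neg (by omega), if_pos rfl]
  have t4 : tt0 u v 24 = -u := by
    unfold tt0; rw [if_neg (by omega), if_neg (by omega), if_neg (by omega), if_neg (by omega)]
  rw [t0, t1, t2, t3, t4]
  ring

/-- the multiplicity of the weight of a point -/
noncomputable def mA (R : Co0 →* (W →ₗ[ℂ] W)) : ℕ := finrank ℂ (eig (rc R) (chi {some 0}))

/-- the multiplicity of the weight of a triad -/
noncomputable def mB (R : Co0 →* (W →ₗ[ℂ] W)) : ℕ := finrank ℂ (eig (rc R) (chi {some 0, some 1, some 2}))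

theorem mA_eq [FiniteDimensional ℂ W] {R : Co0 →* (W →ₗ[ℂ] W)} (hodd : Odd' R) {o : golayCode} (ho : wt o = 8) :
    (4096 : ℂ) * mA R = 2 * finrank ℂ W + 506 * LinearMap.trace ℂ W (R (signCo0 o)) := by
  have e := mult0 hodd ho {some 0} [0] hS1
  rw [tab_sum0 _ _ _ _ _ _ _ _ _ _ _ Tab.tab1] at e
  unfold mA
  push_cast at e
  linear_combination e

theorem mB_eq [FiniteDimensional ℂ W] {R : Co0 →* (W →ₗ[ℂ] W)} (hodd : Odd' R) {o : golayCode} (ho : wt o = 8) :
    (4096 : ℂ) * mB R = 2 * finrank ℂ W - 6 * LinearMap.trace ℂ W (R (signCo0 o)) := by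
  have e := mult0 hodd ho {some 0, some 1, some 2} [0, 1, 2] hS3
  rw [tab_sum0 _ _ _ _ _ _ _ _ _ _ _ Tab.tab3] at e
  unfold mB
  push_cast at e
  linear_combination e

/-- `24 a + 2024 b = degree` -/
theorem mult_sum0 [FiniteDimensional ℂ W] {R : Co0 →* (W →ₗ[ℂ] W)} (hodd : Odd' R) :
    24 * mA R + 2024 * mB R = finrank ℂ W := by
  obtain ⟨o, ho⟩ := exists_octad
  have e1 := mA_eq hodd ho
  have e3 := mB_eq hodd ho
  have h : ((24 * mA R + 2024 * mB R : ℕ) : ℂ) = (finrank ℂ W : ℂ) := by
    push_cast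
    linear_combination (24 / 4096 : ℂ) * e1 + (2024 / 4096 : ℂ) * e3
  exact_mod_cast h

end Cfsg.Agent.H495.QCo.Wt
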